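import Cfsg.Agent.Lib.ToddCox.A7C4.Data
set_option autoImplicit false
set_option maxRecDepth 100000
namespace Cfsg.Agent.Lib.ToddCox.A7C4
theorem wordsGood : allBelow (wordsOK W (relR Rb inv) inv sp) nW 1 = true := by decide +kernel
theorem d0 : allBits (fun k => bif Nat.blt k 2 then chkDef Eo inv k else true) 13 0 = true := by decide +kernel
theorem s0 : chkStream Eo inv W isH 1 2 0x8000002000000 = true := by decide +kernel
theorem c0 : Covered Eo inv W isH 2 3 := covered_of_stream 1 2 _ s0
theorem l0 : chkPoints Eo cF (2 * nEv) N ys 3 0 0x20000004000006000000000000800000000000a0000020000010000008000000000001 = true := by decide +kernel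
theorem k0 : LinksOK Eo cF (2 * nEv) N ys 0 3 := linksOK_of_points 3 0 _ l0
end Cfsg.Agent.Lib.ToddCox.A7C4
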